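import Cfsg.Agent.S3703
import Cfsg.Agent.Lib.BG.Quo
import Cfsg.Agent.Lib.Perm.Sym3
import Cfsg.Agent.Lib.Char.Burnside

/-!
# Groups whose elements have order at most six: general facts
-/

set_option autoImplicit false

namespace Cfsg.Lib.Spec2

open Subgroup Cfsg.Lib Cfsg.Lib.BG Cfsg.Lib.Transfer
open scoped commutatorElement

variable {G L : Type*} [Group G] [Group L]

/-- All element orders are at most six. -/
def Om6 (G : Type*) [Group G] : Prop := ∀ g : G, orderOf g ≤ 6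

namespace Om6

variable (h : Om6 G)
include h

theorem inj {f : L →* G} (hf : Function.Injective f) : Om6 L := fun g => orderOf_injective f hf g ▸ h _

theorem sub (H : Subgroup G) : Om6 H := h.inj H.subtype_injective

variable [Finite G] {x y : G}

theorem surj {f : G →* L} (hf : Function.Surjective f) : Om6 L := fun g => by
  obtain ⟨g, rfl⟩ := hf g
  exact (Nat.le_of_dvd (orderOf_pos g) (orderOf_map_dvd f g)).trans (h g)

theorem not_dvd {n : ℕ} (hn : 6 < n) : ¬ n ∣ orderOf x := fun e =>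
  (hn.trans_le (Nat.le_of_dvd (orderOf_pos x) e)).not_ge (h x)

theorem mul_le (e : x * y = y * x) (hc : (orderOf x).Coprime (orderOf y)) :
    orderOf x * orderOf y ≤ 6 := Commute.orderOf_mul_eq_mul_orderOf_of_coprime e hc ▸ h _

theorem prime_le {p : ℕ} (hp : p.Prime) (hd : p ∣ Nat.card G) : p = 2 ∨ p = 3 ∨ p = 5 := by
  have := Fact.mk hp
  obtain ⟨g, hg⟩ := exists_prime_orderOf_dvd_card' p hd
  have := hg ▸ h g
  interval_cases p <;> simp_all (config := {decide := true})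

theorem pow_four {k : ℕ} (e : x ^ 2 ^ k = 1) : x ^ 4 = 1 := by
  obtain ⟨j, -, e'⟩ := (Nat.dvd_prime_pow Nat.prime_two).1 (orderOf_dvd_of_pow_eq_one e)
  rw [← orderOf_dvd_iff_pow_eq_one, e']
  exact pow_dvd_pow 2 (show j ≤ 2 from by_contra fun hj =>
    h.not_dvd (x := x) (by norm_num : 6 < 2 ^ 3) (e' ▸ pow_dvd_pow 2 (by omega : 3 ≤ j)))

theorem pow_odd {p : ℕ} (hp : p.Prime) (h2 : p ≠ 2) {Q : Subgroup G} (hQ : IsPGroup p Q) (hx : x ∈ Q) :
    x ^ p = 1 := by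
  have := Fact.mk hp
  obtain ⟨j, e'⟩ := IsPGroup.iff_orderOf.1 hQ ⟨x, hx⟩
  rw [orderOf_mk] at e'
  have := hp.two_le
  rw [← orderOf_dvd_iff_pow_eq_one, e']
  exact (pow_dvd_pow p (show j ≤ 1 from by_contra fun hj => h.not_dvd (x := x)
    (by nlinarith [show 3 ≤ p by omega] : 6 < p ^ 2) (e' ▸ pow_dvd_pow p (by omega : 2 ≤ j)))).trans
    (by simp)

/-- Nothing of order prime to five commutes with an element of order five. -/
theorem five (hx : orderOf x = 5) (hy : ¬ 5 ∣ orderOf y) (e : y * x = x * y) : y = 1 := by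
  have := h.mul_le e (by rw [hx]; exact ((Nat.prime_five.coprime_iff_not_dvd).2 hy).symm)
  have := orderOf_pos y
  rw [hx] at *
  exact orderOf_eq_one_iff.1 (by omega)

theorem five' {p : ℕ} [Fact p.Prime] (h5 : p ≠ 5) {Q : Subgroup G} (hQ : IsPGroup p Q)
    (hx : orderOf x = 5) : Q ⊓ 𝐂[x] = ⊥ := eq_bot_iff.2 fun y hy => h.five hx (fun e => h5
  (pgroup_eq_of_dvd hQ Nat.prime_five (e.trans (Q.orderOf_dvd_natCard hy.1))).symm) (mem_cent1.1 hy.2)

theorem order_five (e : 5 ∣ orderOf x) : orderOf x = 5 := by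
  have := h x
  have := orderOf_pos x
  omega

theorem not_five {H : Subgroup G} (hy : ¬ 5 ∣ orderOf y) (y1 : y ≠ 1) (hH : H ≤ 𝐂[y]) :
    ¬ 5 ∣ Nat.card H := fun e => by
  have := Fact.mk Nat.prime_five
  obtain ⟨x, hx⟩ := exists_prime_orderOf_dvd_card' 5 e
  exact y1 (h.five ((orderOf_coe x).trans hx) hy (mem_cent1.1 (hH x.2)).symm)

theorem sol {H : Subgroup G} {r : ℕ} (hr : r = 2 ∨ r = 3 ∨ r = 5) (e : ¬ r ∣ Nat.card H) :
    Group.IsSolvable H := by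
  refine Char.isSolvable_of_card_primeFactors_le_two _ ((Finset.card_le_card
    (t := ({2, 3, 5} : Finset ℕ).erase r) fun p hp => ?_).trans (by rcases hr with rfl | rfl | rfl <;> decide))
  obtain ⟨h1, h2, -⟩ := Nat.mem_primeFactors.1 hp
  exact Finset.mem_erase.2 ⟨fun e' => e (e' ▸ h2), by simpa using (h.sub H).prime_le h1 h2⟩

/-- The centraliser of an element of order three has elementary abelian Sylow `2`-subgroups. -/
theorem elem_cent {Q : Subgroup G} (hQ : IsPGroup 2 Q) (hx : orderOf x = 3) :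
    IsElementaryAbelian 2 (Q ⊓ 𝐂[x]) := PGroup.elemAb_two_iff.2 fun y hy => by
  obtain ⟨j, e⟩ := IsPGroup.iff_orderOf.1 hQ ⟨y, hy.1⟩
  rw [orderOf_mk] at e
  have := h.mul_le (mem_cent1.1 hy.2) (by rw [e, hx]; exact Nat.Coprime.pow_left _ (by norm_num))
  rw [← orderOf_dvd_iff_pow_eq_one, e]
  rw [e, hx] at this
  exact (pow_dvd_pow 2 (show j ≤ 1 from by_contra fun hj => by
    have := Nat.pow_le_pow_right two_pos (show 2 ≤ j by omega); omega)).trans (by simp)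

end Om6

variable [Finite G] {π : G →* L}

theorem exists_big {p : ℕ} [hp : Fact p.Prime] (hπ : Function.Surjective π) (hN : IsPGroup p π.ker)
    {K : Subgroup L} {b : L} (hb : b ∈ 𝐍(K)) (hf : ∀ i, 0 < i → i < orderOf b → K ⊓ 𝐂[b ^ i] = ⊥)
    (hc : ¬ p ∣ Nat.card K) (hs : Group.IsSolvable K) (hn : ¬ K ≤ 𝐂(π.ker).map π) :
    ∃ g : G, orderOf b * p ∣ orderOf g := by
  have := Finite.of_surjective π hπ
  have hnN : ∀ H : Subgroup G, H ≤ 𝐍(π.ker) := fun H => le_normalizer_of_normal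
  have hi : π.ker.relIndex (K.comap π) = Nat.card K := by
    rw [relIndex_ker, map_comap_eq_self_of_surjective hπ]
  obtain ⟨k, hk⟩ := hN.exists_card_eq
  have hc' : (Nat.card K).Coprime (Nat.card π.ker) :=
    hk ▸ (hp.out.coprime_iff_not_dvd.2 hc).symm.pow_right k
  obtain ⟨F, -, h2, h3, h4⟩ := Coprime.exists_complement (ker_le_comap π K) (hnN _) (hi ▸ hc'.symm)
  have h5 : F.map π = K := by
    rw [← map_comap_eq_self_of_surjective hπ K, ← h3, Subgroup.map_sup, (Subgroup.map_eq_bot_iff _).2 le_rfl,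
      bot_sup_eq]
  have hinj : ∀ x ∈ F, π x = 1 → x = 1 := fun x hx e => mem_bot.1 (h2 ▸ mem_inf.2 ⟨e, hx⟩)
  have hcF : (Nat.card F).Coprime (Nat.card π.ker) := by rwa [h4, hi]
  have hsF : Group.IsSolvable F := Group.isSolvable_of_isSolvable_injective
    (f := (π.comp F.subtype).codRestrict K fun x => h5 ▸ mem_map_of_mem _ x.2)
    ((injective_iff_map_eq_one _).2 fun x e => Subtype.ext (hinj x x.2 (congrArg Subtype.val e)))
  obtain ⟨h, rfl, hhF⟩ : ∃ h, π h = b ∧ h ∈ 𝐍(F) := by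
    obtain ⟨h, rfl⟩ := hπ b
    have e0 : π.ker ⊔ h ⋆ F = π.ker ⊔ F := by
      have e1 := conj_sup h π.ker F
      rw [conj_eq_of_norm (hnN _ (mem_top h)), h3, conj_eq_of_norm (comap_le_norm π
        (zpowers_le.2 hb) (mem_zpowers _))] at e1
      rw [← e1, h3]
    obtain ⟨n, hn, e⟩ := Coprime.exists_map_conj_eq_of_sup_eq (B := h ⋆ F) (hnN _) e0 h2
      (by rwa [card_conj]) (.inl (sol_map _ hsF))
    exact ⟨n * h, by rw [map_mul, hn, one_mul], norm_of_conj_eq (by rw [← conj_conj]; exact e)⟩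
  have key : ∀ g, π g = π h → g ^ orderOf (π h) ≠ 1 → orderOf (π h) * p ∣ orderOf g := fun g e h1 => by
    obtain ⟨j, e'⟩ := IsPGroup.iff_orderOf.1 hN ⟨g ^ orderOf (π h), by
      rw [MonoidHom.mem_ker, map_pow, e, pow_orderOf_eq_one]⟩
    have h7 : orderOf (π h) ∣ orderOf g := e ▸ orderOf_map_dvd _ _
    rw [orderOf_mk] at e'
    have h6 : p ∣ orderOf (g ^ orderOf (π h)) :=
      e' ▸ dvd_pow_self p (by rintro rfl; exact h1 (orderOf_eq_one_iff.1 e'))
    rw [orderOf_pow_of_dvd (orderOf_pos _).ne' h7] at h6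
    exact Nat.mul_dvd_of_dvd_div h7 h6
  by_cases h1 : h ^ orderOf (π h) = 1
  swap
  · exact ⟨h, key h rfl h1⟩
  have hle : ⁅π.ker, F⁆ ≤ π.ker := comm_le_left (hnN F)
  obtain ⟨x, hx, e⟩ := Agent.S3703.norm_ne (Q := ⁅π.ker, F⁆) (F := F) (h := h) (orderOf_pos (π h))
    (fun e => hn (h5 ▸ map_mono (comm_eq_bot_iff'.1 e))) (nil_of_le (pgroup_nil hN) hle)
    (right_norm_comm _ _) (norm_comm (hnN _) (zpowers_le.2 hhF) (mem_zpowers h)) hhF
    (coprime_mono hcF le_rfl hle) (coprime_commGid (hnN F) hcF) fun i i0 im => eq_bot_iff.2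
      fun y hy => hinj y hy.1 (mem_bot.1 (hf i i0 im ▸ mem_inf.2 ⟨h5 ▸ mem_map_of_mem _ hy.1,
        mem_cent1.2 (by rw [← map_pow, ← map_mul, ← map_mul, mem_cent1.1 hy.2])⟩))
  exact ⟨_, key (x * h) (by rw [map_mul, hle hx, one_mul]) (h1 ▸ e)⟩

theorem Om6.lift_ten (h : Om6 G) (hπ : Function.Surjective π) (hN : IsPGroup 2 π.ker) {f a : L}
    (hf : orderOf f = 5) (ha : a * a = 1) (e : a * f * a⁻¹ = f⁻¹) :
    ∃ f a : G, orderOf f = 5 ∧ a * a = 1 ∧ a * f * a⁻¹ = f⁻¹ := by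
  obtain ⟨f, rfl⟩ := hπ f
  obtain ⟨a, rfl⟩ := hπ a
  have h1 := h.order_five (hf ▸ orderOf_map_dvd π f)
  obtain ⟨x, hx, e'⟩ := Frobenius.exists_conj_eq_mul (K := π.ker) (h := f⁻¹)
    (le_normalizer_of_normal (mem_top _)) (h.five' (by decide) hN ((orderOf_inv f).trans h1))
    (k := a * f * a⁻¹ * f) (by simp [MonoidHom.mem_ker, e])
  have h2 : x⁻¹ * a * f * (x⁻¹ * a)⁻¹ = f⁻¹ := by
    rw [mul_inv_cancel_right] at e'
    rw [show x⁻¹ * a * f * (x⁻¹ * a)⁻¹ = x⁻¹ * (a * f * a⁻¹) * x by group, ← e']; group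
  refine ⟨f, x⁻¹ * a, h1, mem_bot.1 (h.five' (by decide) hN h1 ▸ mem_inf.2 ⟨?_, mem_cent1.2 ?_⟩), h2⟩
  · simp [MonoidHom.mem_ker, show π x = 1 from hx, ha]
  · generalize x⁻¹ * a = c at h2
    rw [← mul_inv_eq_iff_eq_mul, show c * c * f * (c * c)⁻¹ = c * (c * f * c⁻¹) * c⁻¹ by group, h2,
      ← conj_inv, h2, inv_inv]

/-- A dihedral group of order ten acting on a `2`-group of class two. -/
theorem Om6.elem_of_ten (h : Om6 G) {Q : Subgroup G} [Q.Normal] (hQ : IsPGroup 2 Q) (h1 : π.ker ≤ 𝐂(Q))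
    (h2 : π.ker ≤ Q) (h3 : ∀ x ∈ π.ker, x * x = 1) (h4 : IsElementaryAbelian 2 (Q.map π)) {f a : G}
    (hf : orderOf f = 5) (ha : a * a = 1) (e : a * f * a⁻¹ = f⁻¹) : IsElementaryAbelian 2 Q := by
  have c : ∀ g : G, ∀ {x}, x ∈ Q → g * x * g⁻¹ ∈ Q := fun g x hx => Normal.conj_mem ‹_› x hx g
  have cm : ∀ {x y}, x ∈ Q → y ∈ Q → π x * π y = π y * π x := fun hx hy =>
    PGroup.elemAb_comm h4 (mem_map_of_mem π hx) (mem_map_of_mem π hy)
  have iv : ∀ {x}, x ∈ Q → (π x)⁻¹ = π x := fun hx =>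
    inv_eq_of_mul_eq_one_right ((sq _).symm.trans (h4.2 _ (mem_map_of_mem π hx)))
  let φ : Q →* L := MonoidHom.mk' (fun q => π (q * (a * q * a⁻¹))) fun x y => by
    rw [Subgroup.coe_mul, ← conj_mul, map_mul, map_mul, map_mul, map_mul π (x : G), map_mul π (y : G),
      mul_assoc (π x), ← mul_assoc (π y), cm y.2 (c a x.2), mul_assoc, mul_assoc (π x)]
  let S := φ.range.comap π
  have hS : ∀ x ∈ S, ∃ q ∈ Q, ∃ n ∈ π.ker, q * (a * q * a⁻¹) * n = x := fun x ⟨q, hq⟩ =>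
    ⟨q, q.2, (q * (a * q * a⁻¹))⁻¹ * x, by
      rw [MonoidHom.mem_ker, map_mul, map_inv, ← hq]; exact inv_mul_cancel _, mul_inv_cancel_left _ _⟩
  have hSQ : S ≤ Q := fun x hx =>
    let ⟨q, hq, n, hn, e⟩ := hS x hx; e ▸ mul_mem (mul_mem hq (c a hq)) (h2 hn)
  have eS : IsElementaryAbelian 2 S := PGroup.elemAb_two_iff.2 fun x hx => by
    obtain ⟨q, hq, n, hn, rfl⟩ := hS x hx
    have e1 : q * (a * q * a⁻¹) = (q * a) ^ 2 := by rw [inv_eq_of_mul_eq_one_right ha, sq]; group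
    obtain ⟨k, hk⟩ := hQ ⟨_, mul_mem hq (c a hq)⟩
    have e2 := h.pow_four (x := q * a) (k := k + 1) (by
      rw [pow_succ', pow_mul, ← e1]; exact congrArg Subtype.val hk)
    rw [Commute.mul_pow (mem_cent.1 (h1 hn) _ (mul_mem hq (c a hq))), sq n, h3 n hn, e1, ← pow_mul, e2,
      one_mul]
  have hfix : ∀ w ∈ S, π a * π w * (π a)⁻¹ = π w := by
    rintro w ⟨q, hq⟩
    have := cm q.2 (c a q.2)
    have e1 : π a * π a = 1 := by rw [← map_mul, ha, map_one]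
    rw [← hq]
    simp only [φ, MonoidHom.mk'_apply, map_mul, map_inv, inv_eq_of_mul_eq_one_right e1] at this ⊢
    conv_rhs => rw [this]
    simp only [mul_assoc]
    rw [e1, mul_one]
  have e' : a * f⁻¹ = f * a := by rw [← e, ← mul_assoc, ← mul_assoc, ha, one_mul,
    inv_eq_of_mul_eq_one_right ha]
  let β : G → G → G := fun u w => ⁅u, f * w * f⁻¹⁆
  have hβ : ∀ u ∈ S, ∀ w ∈ S, β u w = f⁻¹ * β w u * f := fun u hu w hw => by
    have e1 : f * w * f⁻¹ * (f⁻¹ * w * f) ∈ S := ⟨⟨_, c f (hSQ hw)⟩, by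
      have e2 : π a * π f = (π f)⁻¹ * π a := by
        rw [← map_inv, ← map_mul, ← map_mul, ← e, inv_mul_cancel_right]
      have e3 : (π f)⁻¹ * (π a)⁻¹ = (π a)⁻¹ * π f := by rw [← mul_inv_rev, e2]; group
      simp only [φ, MonoidHom.mk'_apply, map_mul, map_inv]
      congr 1
      conv_rhs => rw [← hfix w hw]
      simp only [← mul_assoc, e2]
      simp only [mul_assoc, e3]⟩
    have e2 := PGroup.elemAb_comm eS hu e1
    have e3 : ⁅u, f⁻¹ * w * f⁆ ∈ π.ker := by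
      rw [MonoidHom.mem_ker, map_commutatorElement, commutatorElement_eq_one_iff_mul_comm]
      exact cm (hSQ hu) (by simpa using c f⁻¹ (hSQ hw))
    have e4 := mem_cent.1 (h1 e3) _ (c f (hSQ hw))
    simp only [β, commutatorElement_def] at e4 ⊢
    generalize f * w * f⁻¹ = w' at e2 e4
    calc _ = u * (w' * (f⁻¹ * w * f)) * u⁻¹ * (u * (f⁻¹ * w * f)⁻¹ * u⁻¹) * w'⁻¹ := by group
      _ = w' * (u * (f⁻¹ * w * f) * u⁻¹ * (f⁻¹ * w * f)⁻¹)⁻¹ * w'⁻¹ := by rw [e2]; group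
      _ = _ := by rw [(Commute.inv_right e4).eq]; group
  have h5 : orderOf (f * f) = 5 := by
    rw [← sq, Nat.Coprime.orderOf_pow (by rw [hf]; decide), hf]
  have h6 : S ≤ 𝐂(f ⋆ S) := le_cent_iff.2 (by
    rintro u hu _ ⟨w, hw, rfl⟩
    refine commutatorElement_eq_one_iff_mul_comm.1 (mem_bot.1 (h.five' (by decide) hQ h5 ▸
      mem_inf.2 ⟨mul_mem (mul_mem (mul_mem (hSQ hu) (c f (hSQ hw))) (inv_mem (hSQ hu)))
        (inv_mem (c f (hSQ hw))), mem_cent1.2 ?_⟩))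
    change β u w * _ = _ * β u w
    conv_rhs => rw [hβ u hu w hw, hβ w hw u hu]
    group)
  refine PGroup.elemAb_of_le (PGroup.elemAb_sup eS (PGroup.elemAb_map _ eS) h6) fun y hy => ?_
  obtain ⟨x, hx, e1⟩ := Frobenius.exists_conj_eq_mul (K := Q) (h := f * f)
    (le_normalizer_of_normal (mem_top _)) (h.five' (by decide) hQ h5) hy
  have e2 : ∀ q ∈ Q, q * (a * q⁻¹ * a⁻¹) ∈ S := fun q hq => ⟨⟨q, hq⟩, by simp [φ, iv hq]⟩
  have e3 := mul_mem_sup (e2 x hx) (conj_mem_conj (g := f).2 (e2 (f⁻¹ * (a * x⁻¹ * a⁻¹)⁻¹ * f)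
    (by simpa using c f⁻¹ (inv_mem (c a (inv_mem hx))))))
  convert e3 using 1
  rw [← mul_left_inj (f * f), ← e1]
  have e4 : f * a * f⁻¹ * a = f * f := by rw [mul_assoc f, e', mul_assoc, mul_assoc, ha, mul_one]
  rw [← e4]
  group

end Cfsg.Lib.Spec2
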