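import Cfsg.Agent.Lib.Spec2.O6A
import Cfsg.Agent.Lib.BG.T01_Cyclic
import Cfsg.Agent.Lib.BG.T01_Coprime
import Cfsg.Agent.Lib.BG.T03_7
import Cfsg.Agent.Lib.BG.T03_6b
import Cfsg.Agent.Lib.Frobenius.CN
import Cfsg.Agent.Lib.Frobenius.Binary
import Cfsg.Agent.Lib.Inv.SLTwoThree
import Cfsg.Agent.Lib.HH.Misc

/-!
# Solvable groups whose element orders are exactly `1, …, 6`
-/

set_option autoImplicit false

namespace Cfsg.Lib.Spec2

open Subgroup Cfsg.Lib Cfsg.Lib.BG Cfsg.Lib.Transfer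

variable {G : Type*} [Group G] [Finite G] {x y z f : G}

theorem inverts {U : Subgroup G} [U.Normal] (hf : U ⊓ 𝐂[x] = ⊥) (h2 : x * x ∈ 𝐂(U)) {u : G} (hu : u ∈ U) :
    x * u * x⁻¹ = u⁻¹ := by
  obtain ⟨v, hv, e⟩ := Frobenius.exists_conj_eq_mul (le_normalizer_of_normal (mem_top x)) hf hu
  rw [← mul_inv_eq_iff_eq_mul] at e
  rw [← e, show x * (v * x * v⁻¹ * x⁻¹) * x⁻¹ = x * v * x * (x * x * v)⁻¹ by group, ← mem_cent.1 h2 v hv]
  group

omit [Finite G] in
theorem comm_cent {U : Subgroup G} [hU : U.Normal] (h : ∀ u ∈ U, x * u * x⁻¹ = u⁻¹) (g : G) :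
    g * x * g⁻¹ * x⁻¹ ∈ 𝐂(U) := mem_cent.2 fun k hk => by
  have e1 := h _ (inv_mem hk)
  have e2 := h _ (hU.conj_mem' _ (inv_mem hk) g)
  rw [inv_inv] at e1
  calc k * (g * x * g⁻¹ * x⁻¹) = g * (g⁻¹ * k⁻¹ * g)⁻¹ * x * g⁻¹ * x⁻¹ := by group
    _ = g * x * g⁻¹ * x⁻¹ * (x * k⁻¹ * x⁻¹) := by rw [← e2]; group
    _ = _ := by rw [e1]

namespace Om6

variable (h : Om6 G)
include h

theorem no12 (hx : orderOf x = 4) (hy : orderOf y = 3) : x * y ≠ y * x := fun e => by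
  have := h.mul_le e (by rw [hx, hy]; decide)
  rw [hx, hy] at this
  omega

theorem core_five (hs : Group.IsSolvable G) (hf : orderOf f = 5) (hx : orderOf x = 4) (hy : orderOf y = 3) :
    𝐎({5}, (⊤ : Subgroup G)) ≠ ⊥ := fun h0 => by
  have := Fact.mk Nat.prime_five
  have := Fact.mk Nat.prime_three
  obtain ⟨P, hP⟩ := Syl.exists 5 (O2 5 (⊤ : Subgroup G))
  have hC := (le_inf le_top le_rfl).trans (solvable_p_constrained inferInstance hP)
  have hM := O2_eq_sup hP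
  have hK := pcore_pi {5}ᶜ (⊤ : Subgroup G)
  have nK := Nml.top_iff.1 (pcore_nml {5}ᶜ (⊤ : Subgroup G))
  have nM := Nml.top_iff.1 (O2_nml 5 (⊤ : Subgroup G))
  have hH : Hall {5}ᶜ 𝐎({5}ᶜ, (⊤ : Subgroup G)) (O2 5 ⊤) :=
    .mk' (p'core_le_O2 _ _) hK (by rw [compl_compl]; exact O2_relIndex _ _)
  have hmax : ∀ {H : Subgroup G}, H.Normal → ¬ 5 ∣ Nat.card H → H ≤ 𝐎({5}ᶜ, ⊤) := fun hn hd =>
    pcore_max (PiGrp.p'_iff.2 hd) (Nml.top_iff.2 hn)
  have P1 : P ≠ ⊥ := by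
    rintro rfl
    rw [cent_bot, ← hM, sup_bot_eq] at hC
    exact PiNat.p'_iff.1 (hK.elt (hC (mem_top f))) (hf ▸ dvd_rfl)
  have K1 : 𝐎({5}ᶜ, (⊤ : Subgroup G)) ≠ ⊥ := fun e => P1 (eq_bot_mono ((O2_eq_pcore e).trans h0) hP.le)
  have hF := hP.frattini (O2_nml _ _)
  generalize 𝐎({5}ᶜ, (⊤ : Subgroup G)) = K at *
  generalize O2 5 (⊤ : Subgroup G) = M at *
  have o5 : ∀ {g}, g ∈ P → g ≠ 1 → orderOf g = 5 := fun hg g1 =>
    orderOf_eq_prime (h.pow_odd Nat.prime_five (by decide) hP.pgroup hg) g1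
  have sr : SemiReg K P := fun g hg g1 => eq_bot_iff.2 fun k hk =>
    h.five (o5 hg g1) (PiNat.p'_iff.1 (hK.elt hk.1)) (mem_cent1.1 hk.2)
  have c5 : Nat.card P = 5 := ((Nat.dvd_prime Nat.prime_five).1 (card_dvd_of_cyclic_of_pow
    ((Frobenius.cyclic_or_quaternion_of_semiReg K1 le_normalizer_of_normal sr hP.pgroup).resolve_right
      fun e => absurd e.1 (by decide)) fun g hg => h.pow_odd Nat.prime_five (by decide) hP.pgroup hg)).resolve_left
        (card_ne_one P1)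
  have p5 : (Nat.card P).Prime := c5 ▸ Nat.prime_five
  obtain ⟨f, hfP, f1⟩ := exists_ne_one P1
  have cf := cent1_eq_of_prime p5 hfP f1
  have nil := prime_Frobenius_sol_kernel_nil (K := K) le_normalizer_of_normal p5 (cf ▸ sr f hfP f1)
  rw [top_inf_eq, ← hM, sup_assoc, sup_eq_right.2 (le_norm P)] at hF
  have dec : ∀ g : G, ∃ k ∈ K, ∃ n ∈ 𝐍(P), k * n = g := fun g =>
    (mem_sup_left_norm le_normalizer_of_normal).1 (hF ▸ mem_top g)
  have n4 : ∀ n ∈ 𝐍(P), n ^ 4 ∈ 𝐂(P) := fun n hn => by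
    obtain ⟨c, hc⟩ := index_cent_prime_dvd c5 (le_refl 𝐍(P))
    have := (normal_subgroupOf_iff_le_normalizer (cent_le_norm P)).2 (norm_cent (le_refl 𝐍(P)))
    rw [show 4 = 𝐂(P).relIndex 𝐍(P) * c from hc, pow_mul]
    exact pow_mem (mem_subgroupOf.1 (pow_index_mem (H := 𝐂(P).subgroupOf 𝐍(P)) ⟨n, hn⟩)) c
  let π := QuotientGroup.mk' M
  have hπ : ∀ {g}, π g = 1 ↔ g ∈ M := QuotientGroup.eq_one_iff _
  have πk : ∀ {k}, k ∈ K → ∀ n, π (k * n) = π n := fun hk n => by rw [map_mul, hπ.2 (hH.le hk), one_mul]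
  have g4 : ∀ g, π g ^ 4 = 1 := fun g => by
    obtain ⟨k, hk, n, hn, rfl⟩ := dec g
    rw [πk hk, ← map_pow, hπ.2 (hC (n4 n hn))]
  have inK : ∀ {g}, g ∈ M → ¬ 5 ∣ orderOf g → g ∈ K := fun hg e =>
    hH.mem_of_normal le_normalizer_of_normal hg (PiNat.p'_iff.2 e)
  have yK : y ∈ K := inK (hπ.1 (by
    have := g4 y
    rwa [pow_succ, ← map_pow, ← hy, pow_orderOf_eq_one, map_one, one_mul] at this)) (by rw [hy]; decide)
  have y3 : PiElt {3} y := HH.pElt_iff_orderOf.2 ⟨1, hy⟩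
  have y1 : y ≠ 1 := by rintro rfl; simp at hy
  have yU : y ∈ 𝐎({3}, K) := nil_le_pcore nil (zpowers_le.2 yK) y3.zpowers (mem_zpowers y)
  have hU := pcore_pgroup 3 K
  have UK := pcore_le {3} K
  have nU := Nml.top_iff.1 ((Nml.top_iff.2 nK).pcore {3})
  generalize 𝐎({3}, K) = U at *
  have cU : ∀ {g}, g ∈ K → g ^ 4 = 1 → g ∈ 𝐂(U) := fun hg e => zpowers_le.1 (nil_cent_of_coprime nil
    (zpowers_le.2 hg) UK (coprime_pgroups (HH.pgroup_zpowers ((HH.pElt_iff_pow (p := 2)).2 ⟨2, e⟩)) hU (by decide)))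
  have x4 : x ^ 4 = 1 := hx ▸ pow_orderOf_eq_one x
  obtain ⟨k, hk, n, hn, e⟩ := dec x
  by_cases h2 : x * x ∈ M
  · have e1 := hmax inferInstance (h.not_five (by rw [hy]; decide) y1 (cent_le_cent1 yU)) (comm_cent (x := x)
      (fun u => inverts (eq_bot_iff.2 fun u hu => by_contra fun u1 => h.no12 hx (orderOf_eq_prime
        (h.pow_odd Nat.prime_three (by decide) hU hu.1) u1) (mem_cent1.1 hu.2).symm) (cU (inK h2 (by
          rw [← sq, orderOf_pow' _ two_ne_zero, hx]; decide)) (by rw [← sq, ← pow_mul, mul_comm, pow_mul, x4, one_pow]))) f)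
    have e2 : f * n * f⁻¹ * n⁻¹ ∈ K ⊓ P := mem_inf.2 ⟨by
      have := mul_mem (mul_mem (inv_mem (nK.conj_mem k hk f)) e1) hk
      rw [← e] at this
      convert this using 1
      group, by rw [mul_assoc, mul_assoc, ← mul_assoc n]; exact mul_mem hfP (conj_mem_of_norm hn (inv_mem hfP))⟩
    rw [disjoint_of_coprime (hK.coprime_pgroup hP.pgroup), mem_bot, mul_inv_eq_one, mul_inv_eq_iff_eq_mul] at e2
    exact h.no12 hx hy (mem_cent.1 (cU (inK (e ▸ mul_mem (hH.le hk) (hC (cf ▸ mem_cent1.2 e2.symm)))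
      (by rw [hx]; decide)) x4) y yU).symm
  have o4 : ∀ g, π g = π x → g ^ 4 = 1 := fun g e => by
    have e1 : orderOf (π g) = 4 := orderOf_eq_prime_pow (p := 2) (n := 1)
      (by rw [e, pow_one, ← map_pow, hπ, sq]; exact h2) (g4 g)
    have e2 := e1 ▸ orderOf_map_dvd π g
    have := h g
    have := orderOf_pos g
    rw [← show orderOf g = 4 by omega, pow_orderOf_eq_one]
  have cop := coprime_pgroups hP.pgroup hU (by decide)
  have e1 : π n = π x := by rw [← e, πk hk]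
  obtain ⟨u, hu, e2⟩ := Agent.S3703.norm_ne (Q := U) (F := P) (h := n) four_pos (ne_bot_of_mem yU y1)
    (pgroup_nil hU) le_normalizer_of_normal (le_normalizer_of_normal (mem_top n)) hn cop
    (coprime_comm_eq_of_cent_bot le_normalizer_of_normal cop (.inl (pgroup_sol hP.pgroup))
      (cf ▸ h.five' (by decide) hU (o5 hfP f1))) fun i i0 i4 => inf_eq_bot_of_prime p5 fun e => h2 (hπ.1 (by
        have e3 := hπ.2 (hC (le_cent1_iff.1 e))
        have e4 := g4 x
        rw [map_pow, e1] at e3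
        rw [map_mul, ← sq]
        interval_cases i
        · rw [pow_one] at e3; rw [e3, one_pow]
        · exact e3
        · rw [pow_succ, e3, one_mul] at e4; rw [e4, one_pow]))
  exact e2 (by rw [o4 _ ((πk (UK hu) n).trans e1), o4 n e1])

theorem compl (h5 : ¬ 5 ∣ Nat.card G) (h9 : ¬ 9 ∣ Nat.card G) (hz : orderOf z = 2)
    (hu : ∀ t, orderOf t = 2 → t = z) (hx : orderOf x = 4) (hy : orderOf y = 3) :
    Nonempty (G ≃* QuaternionGroup 3) ∨ Nonempty (G ≃* Matrix.SpecialLinearGroup (Fin 2) (ZMod 3)) := by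
  have := Fact.mk Nat.prime_three
  have hs : Group.IsSolvable (⊤ : Subgroup G) := h.sol (r := 5) (by simp) (by rwa [card_top])
  have pr : ∀ {H : Subgroup G} {q : ℕ}, q.Prime → q ∣ Nat.card H → q = 2 ∨ q = 3 := fun {H q} hq hd => by
    have hd' := hd.trans H.card_subgroup_dvd_card
    rcases h.prime_le hq hd' with e | e | rfl
    exacts [.inl e, .inr e, (h5 hd').elim]
  have cz : ∀ g, g * z = z * g := fun g => mul_inv_eq_iff_eq_mul.1 (hu _ (hz ▸ (MulAut.conj g).orderOf_eq z))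
  have z2 : z ^ 2 = 1 := hz ▸ pow_orderOf_eq_one z
  have y3 : y ^ 3 = 1 := hy ▸ pow_orderOf_eq_one y
  have z1 : z ≠ 1 := by rintro rfl; simp at hz
  have x2 : x ^ 2 = z := hu _ (by rw [orderOf_pow' _ two_ne_zero, hx]; rfl)
  have cR : Nat.card (zpowers y) = 3 := by rw [Nat.card_zpowers, hy]
  have hR : Syl 3 (zpowers y) ⊤ := .mk' le_top (.of_card (n := 1) cR) fun ⟨c, e⟩ => h9 ⟨c, by
    rw [← card_top, ← BG.card_mul_relIndex (le_top : zpowers y ≤ ⊤), cR, e]; ring⟩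
  by_cases h0 : 𝐎({2}ᶜ, (⊤ : Subgroup G)) = ⊥
  · right
    have q8 : ∀ T : Subgroup G, IsPGroup 2 T → IsCyclic T ∨ Nonempty (T ≃* QuaternionGroup 2) := fun T hT => by
      refine (PGroup.isCyclic_or_quaternion_of_pRankLE_one hT (PGroup.pRankLE_one_of_unique_subgroup
        fun A B hA hB => ?_)).imp id fun ⟨_, n, ⟨e⟩⟩ => ?_
      · obtain ⟨a, ha, a1⟩ := exists_ne_one (ne_bot_of_prime (hA ▸ Nat.prime_two))
        obtain ⟨b, hb, b1⟩ := exists_ne_one (ne_bot_of_prime (hB ▸ Nat.prime_two))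
        have e1 := zpowers_eq_of_prime (hA ▸ Nat.prime_two) ha a1
        have e2 := zpowers_eq_of_prime (hB ▸ Nat.prime_two) hb b1
        rw [← e1, Nat.card_zpowers, ← orderOf_coe] at hA
        rw [← e2, Nat.card_zpowers, ← orderOf_coe] at hB
        rw [← e1, ← e2, Subtype.ext ((hu _ hA).trans (hu _ hB).symm)]
      · have h1 := h (e.symm (QuaternionGroup.a 1) : T)
        rw [orderOf_coe, e.symm.orderOf_eq, QuaternionGroup.orderOf_a_one] at h1
        obtain rfl : n = 0 := by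
          by_contra hn
          have : 2 ^ 2 ≤ 2 ^ (n + 1) := Nat.pow_le_pow_right (by norm_num) (by omega)
          omega
        exact ⟨e⟩
    have hC := (le_inf le_top le_rfl).trans (cent_sub_Fitting hs)
    have hQ : IsPGroup 2 𝐅((⊤ : Subgroup G)) := Fitting_eq_pcore h0 ▸ pcore_pgroup 2 _
    have nQ := Nml.top_iff.1 (Fitting_nml (⊤ : Subgroup G))
    generalize 𝐅((⊤ : Subgroup G)) = Q at *
    have yQ : y ∉ Q := fun e => absurd (pgroup_eq_of_dvd hQ Nat.prime_three (hy ▸ Q.orderOf_dvd_natCard e))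
      (by decide)
    have nc : ¬ IsCyclic Q := fun e => (coprime_act_cyclic_pgroup (A := zpowers y) e hQ le_normalizer_of_normal
      (by rw [cR]; decide)).elim (fun e => yQ (hC (e (mem_zpowers y)))) fun e => z1 (mem_bot.1 (e.1 ▸
        mem_inf.2 ⟨hC (mem_cent.2 fun g _ => cz g), mem_cent.2 fun g _ => cz g⟩))
    have e8 := (q8 Q hQ).resolve_left nc
    obtain ⟨T, hT, QT⟩ := Syl.exists_ge hQ le_top
    obtain rfl := eq_of_le_of_card_le QT (by
      rw [Inv.q8_card e8, Inv.q8_card ((q8 T hT.pgroup).resolve_left fun e => nc (cyclic_of_le e QT))])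
    obtain ⟨H, e, φ, hφ⟩ := Inv.exists_hom_sl_two_three e8 (le_normalizer_of_normal (mem_top y))
      (by rw [hy]; decide) fun e => yQ (hC e)
    have cH : Nat.card H = 24 := by
      rw [e, PGroup.card_sup_zpowers (p := 3) (le_normalizer_of_normal (mem_top y)) yQ (y3 ▸ one_mem _),
        Inv.q8_card e8]
    obtain rfl : H = ⊤ := eq_top_iff.2 (Syl.le_of_forall fun q hq hd => by
      rcases pr hq hd with rfl | rfl
      exacts [⟨_, hT, e ▸ le_sup_left⟩, ⟨_, hR, e ▸ le_sup_right⟩])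
    exact ⟨topEquiv.symm.trans (MulEquiv.ofBijective φ ((Nat.bijective_iff_surjective_and_card φ).2
      ⟨hφ, cH.trans Frobenius.card_sl_two_three.symm⟩))⟩
  left
  have e3 : 𝐎({2}ᶜ, (⊤ : Subgroup G)) = zpowers y := (eq_bot_or_eq_of_prime (cR ▸ Nat.prime_three)
    (hR.ge_of_nml (pcore_nml _ _) ((pcore_pi _ _).mono' fun q hq hd e => (pr hq hd).resolve_left e))).resolve_left h0
  have nR : (zpowers y).Normal := e3 ▸ Nml.top_iff.1 (pcore_nml {2}ᶜ (⊤ : Subgroup G))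
  have y1 : y ≠ 1 := by rintro rfl; simp at hy
  have inv : ∀ g, g * y ≠ y * g → g * y * g⁻¹ = y⁻¹ := fun g hg => by
    classical
    have e := nR.conj_mem y (mem_zpowers y) g
    rw [mem_zpowers_iff_mem_range_orderOf, hy, Finset.mem_image] at e
    obtain ⟨i, hi, e⟩ := e
    rw [Finset.mem_range] at hi
    interval_cases i
    · exact (y1 (conj_eq_one_iff.1 (by rw [← e, pow_zero]))).elim
    · exact (hg (by rw [← mul_inv_eq_iff_eq_mul, ← e, pow_one])).elim
    · rw [← e, eq_inv_iff_mul_eq_one, ← pow_succ, y3]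
  have a3 : (z * y) ^ 3 = z := by
    rw [Commute.mul_pow (cz y).symm, y3, mul_one, pow_succ, z2, one_mul]
  have a4 := pow_mem (mem_zpowers (z * y)) 4
  rw [pow_succ, a3, ← mul_assoc, ← sq, z2, one_mul] at a4
  have cy : ∀ c, c * y = y * c → c ∈ zpowers (z * y) := fun c hc => by
    obtain ⟨s, hs, t, ht, s2, t3, rfl, -⟩ := exists_pi_decomp {2} c
    refine mul_mem ?_ (zpowers_le.2 a4 (hR.mem_of_normal le_normalizer_of_normal
      (mem_top t) fun q hq hd => (pr (H := ⊤) hq (hd.trans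
        ((⊤ : Subgroup G).orderOf_dvd_natCard (mem_top t)))).resolve_left (t3 q hq hd)))
    by_cases s1 : s = 1
    · exact s1 ▸ one_mem _
    rw [hu s (orderOf_eq_prime ((h.elem_cent (HH.pgroup_zpowers s2) hy).2 s
      ⟨mem_zpowers s, zpowers_le.2 (mem_cent1.2 hc) hs⟩) s1)]
    have := pow_mem (mem_zpowers (z * y)) 3
    rwa [a3] at this
  have xy := h.no12 hx hy
  refine PGroup.nonempty_mulEquiv_quaternion (a := z * y) (b := x) (by
    rw [Commute.orderOf_mul_eq_mul_orderOf_of_coprime (cz y).symm (by rw [hz, hy]; decide), hz, hy])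
    (x2.trans a3.symm) (by
      rw [← conj_mul, inv x xy, cz x, mul_inv_cancel_right, mul_inv_rev, ← cz,
        inv_eq_of_mul_eq_one_right ((sq z).symm.trans z2)])
    (fun e => xy (mem_cent1.1 (zpowers_le.2 (mem_cent1.2 (by rw [← mul_assoc, cz y])) e)))
    (eq_top_iff.2 fun g _ => ?_)
  by_cases hg : g * y = y * g
  · exact mem_sup_left (cy g hg)
  rw [← mul_inv_cancel_left x g]
  refine mul_mem (mem_sup_right (mem_zpowers x)) (mem_sup_left (cy _ ?_))
  rw [← mul_inv_eq_iff_eq_mul, show x⁻¹ * g * y * (x⁻¹ * g)⁻¹ = x⁻¹ * (g * y * g⁻¹) * x by group, inv g hg,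
    ← inv x xy]
  group

theorem solv (hs : Group.IsSolvable G) (hf : orderOf f = 5) (hx : orderOf x = 4) (hy : orderOf y = 3) :
    ∃ (N : Subgroup G) (_ : N.Normal), IsElementaryAbelian 5 N ∧ (Nonempty (G ⧸ N ≃* QuaternionGroup 3) ∨
      Nonempty (G ⧸ N ≃* Matrix.SpecialLinearGroup (Fin 2) (ZMod 3))) := by
  have := Fact.mk Nat.prime_five
  have := Fact.mk Nat.prime_three
  have K1 := h.core_five hs hf hx hy
  have hK := pcore_pgroup 5 (⊤ : Subgroup G)
  have nK := Nml.top_iff.1 (pcore_nml {5} (⊤ : Subgroup G))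
  have hmax : ∀ {H : Subgroup G}, H.Normal → IsPGroup 5 H → H ≤ 𝐎({5}, ⊤) := fun hn hd =>
    pcore_max_p hd (Nml.top_iff.2 hn)
  generalize 𝐎({5}, (⊤ : Subgroup G)) = K at *
  have p5 := fun {P : Subgroup G} (hP : IsPGroup 5 P) {g} => h.pow_odd (x := g) Nat.prime_five (by decide) hP
  have sr : ∀ {P : Subgroup G}, IsPGroup 5 P → ∀ {g}, ¬ 5 ∣ orderOf g → g ≠ 1 → P ⊓ 𝐂[g] = ⊥ :=
    fun hP g e g1 => eq_bot_iff.2 fun k hk => by_contra fun k1 =>
      g1 (h.five (orderOf_eq_prime (p5 hP hk.1) k1) e (mem_cent1.1 hk.2).symm)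
  obtain ⟨k, hk, k1⟩ := exists_ne_one K1
  have hC : 𝐂(K) ≤ K := hmax inferInstance fun g => ⟨1, Subtype.ext (by_contra fun g1 => by
    have e := h.five (orderOf_eq_prime (p5 hK hk) k1) (y := g) (fun e => g1 (by
      rw [pow_one, Subgroup.coe_pow, ← h.order_five e, pow_orderOf_eq_one, OneMemClass.coe_one]))
      (mem_cent.1 g.2 k hk).symm
    simp [e] at g1)⟩
  have inv : ∀ {t}, orderOf t = 2 → ∀ u ∈ K, t * u * t⁻¹ = u⁻¹ := fun ht u => inverts (sr hK (by rw [ht]; decide)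
    (by rintro rfl; simp at ht)) (by rw [← sq, ← ht, pow_orderOf_eq_one]; exact one_mem _)
  have ht : orderOf (x ^ 2) = 2 := by rw [orderOf_pow' _ two_ne_zero, hx]; rfl
  generalize x ^ 2 = t at ht
  obtain ⟨P, hP, KP⟩ := Syl.exists_ge hK le_top
  obtain rfl : K = P := le_antisymm KP fun g hg => by
    have hn : t ∈ 𝐍(P) := mem_normalizer_of_conj_le (conj_le_iff.2 fun y hy => by
      rw [show t * y * t⁻¹ = (y * t * y⁻¹ * t⁻¹)⁻¹ * y by group]
      exact mul_mem (inv_mem (KP (hC (comm_cent (inv ht) y)))) hy)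
    have e := Frobenius.inv_eq_of_semiReg (zpowers_le.2 hn) (fun s hs => sr hP.pgroup fun e => absurd
      (ht ▸ e.trans (orderOf_dvd_of_mem_zpowers hs)) (by decide)) (mem_zpowers t) ht (inv_mem hg)
    have h1 := hC (comm_cent (inv ht) g)
    rw [show g * t * g⁻¹ * t⁻¹ = g * (t * g⁻¹ * t⁻¹) by group, e, inv_inv] at h1
    rw [show g = (g * g) ^ 3 * (g ^ 5)⁻¹ by rw [← sq, ← pow_mul]; group, p5 hP.pgroup hg, inv_one, mul_one]
    exact pow_mem h1 3
  let π := QuotientGroup.mk' K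
  have hπ : ∀ {g}, π g = 1 ↔ g ∈ K := QuotientGroup.eq_one_iff _
  have oπ : ∀ g, ¬ 5 ∣ orderOf g → orderOf (π g) = orderOf g := fun g e =>
    (orderOf_map_dvd π g).antisymm (orderOf_dvd_of_pow_eq_one (by_contra fun e' => e
      ((orderOf_eq_prime (p5 hK (hπ.1 (by rw [map_pow, pow_orderOf_eq_one]))) e').symm.dvd.trans
        (orderOf_pow_dvd _))))
  obtain ⟨R, hR⟩ := Syl.exists 3 (⊤ : Subgroup G)
  have c3 := card_dvd_of_cyclic_of_pow ((Frobenius.cyclic_or_quaternion_of_semiReg K1 le_normalizer_of_normal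
    (fun g hg => sr hK fun e => absurd (pgroup_eq_of_dvd hR.pgroup Nat.prime_five
      (e.trans (R.orderOf_dvd_natCard hg))) (by decide)) hR.pgroup).resolve_right fun e => absurd e.1 (by decide))
    fun g hg => h.pow_odd Nat.prime_three (by decide) hR.pgroup hg
  refine ⟨K, nK, ⟨abelian_iff.2 (le_cent_iff.2 fun a ha b hb => ?_), fun a ha => p5 hK ha⟩,
    (h.surj (QuotientGroup.mk'_surjective K)).compl (z := π t) (x := π x) (y := π y)
      (fun e => hP.not_dvd' (by rwa [relIndex_top_right])) (fun e => hR.not_dvd' ?_) ((oπ t (by rw [ht]; decide)).trans ht) (fun s hs => ?_)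
      ((oπ x (by rw [hx]; decide)).trans hx) ((oπ y (by rw [hy]; decide)).trans hy)⟩
  · have e := inv ht _ (mul_mem ha hb)
    rw [← conj_mul, inv ht a ha, inv ht b hb, ← mul_inv_rev, inv_inj] at e
    exact e.symm
  · have e1 := e.trans K.index_dvd_card
    rw [← card_top, ← BG.card_mul_relIndex hR.le] at e1
    exact Nat.dvd_of_mul_dvd_mul_left three_pos (e1.trans (Nat.mul_dvd_mul_right c3 _))
  · obtain ⟨s, rfl⟩ := QuotientGroup.mk'_surjective K s
    rw [oπ s fun e => absurd (hs ▸ h.order_five e ▸ orderOf_map_dvd π s) (by decide)] at hs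
    rw [← mul_inv_eq_one, ← map_inv, ← map_mul, hπ]
    refine hC (mem_cent.2 fun u hu => ?_)
    have e1 := inv hs _ (inv_mem hu)
    have e2 := inv ht _ (inv_mem hu)
    rw [inv_inv] at e1 e2
    calc _ = s * u⁻¹ * s⁻¹ * (s * t⁻¹) := by rw [e1]
      _ = s * t⁻¹ * (t * u⁻¹ * t⁻¹) := by group
      _ = _ := by rw [e2]

end Om6

end Cfsg.Lib.Spec2
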